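import Cfsg.Agent.TIM.Cls

/-! # TIM: abelian TI 2-subgroups which are not elementary -/

set_option autoImplicit false

namespace Cfsg.Lib.TIM

open Subgroup Cfsg.Lib.Trans Cfsg.Lib.Gold
open scoped commutatorElement

variable {G : Type*} [Group G] {T : Set (Subgroup G)} {Q Q' F F' N : Subgroup G}
  {a b x y g u s t : G}

/-- Dihedral groups modulo a normalised subgroup. -/
theorem dihedral_mod [Finite G] (hs : s ∈ Ns N) (ht : t ∈ Ns N) (hs2 : s * s ∈ N)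
    (ht2 : t * t ∈ N) : (∃ g ∈ zpowers s ⊔ zpowers t, t⁻¹ * (g * s * g⁻¹) ∈ N) ∨
      ∃ z ∈ zpowers s ⊔ zpowers t, z ∉ N ∧ s⁻¹ * (z * s * z⁻¹) ∈ N ∧ t⁻¹ * (z * t * z⁻¹) ∈ N ∧
        ∃ d ∈ zpowers s ⊔ zpowers t,
          (z * t)⁻¹ * (d * t * d⁻¹) ∈ N ∨ (z * s)⁻¹ * (d * t * d⁻¹) ∈ N := by
  let π : Ns N →* Ns N ⧸ N.subgroupOf (Ns N) := QuotientGroup.mk' _
  have key : ∀ x y : Ns N, π x = π y → x.1⁻¹ * y.1 ∈ N := fun x y e =>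
    mem_subgroupOf.1 (QuotientGroup.eq.1 e)
  let s' : Ns N := ⟨s, hs⟩
  let t' : Ns N := ⟨t, ht⟩
  have h1 : π s' * π s' = 1 := by
    rw [← map_mul]; exact (QuotientGroup.eq_one_iff _).2 (mem_subgroupOf.2 hs2)
  have h2 : π t' * π t' = 1 := by
    rw [← map_mul]; exact (QuotientGroup.eq_one_iff _).2 (mem_subgroupOf.2 ht2)
  have hst : s * t ∈ zpowers s ⊔ zpowers t :=
    mul_mem (mem_sup_left (mem_zpowers s)) (mem_sup_right (mem_zpowers t))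
  have lift : ∀ d ∈ zpowers (π s' * π t'), ∃ e : Ns N, π e = d ∧ e.1 ∈ zpowers s ⊔ zpowers t := by
    rintro _ ⟨k, rfl⟩
    exact ⟨(s' * t') ^ k, by simp, by simpa [s', t'] using zpow_mem hst k⟩
  rcases Nat.even_or_odd (orderOf (π s' * π t')) with he | ho
  · obtain ⟨z, hz, z1, -, zs, zt, hd⟩ := dihedral_even h1 h2 he
    obtain ⟨z, rfl, hz'⟩ := lift z hz
    refine Or.inr ⟨z, hz', fun hn => z1 ((QuotientGroup.eq_one_iff _).2 (mem_subgroupOf.2 hn)),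
      key s' (z * s' * z⁻¹) (by simp [zs]), key t' (z * t' * z⁻¹) (by simp [zt]), ?_⟩
    rcases hd with ⟨d, hd, -, -, e⟩ | ⟨d, hd, e, -⟩
    · obtain ⟨d, rfl, hd'⟩ := lift d hd
      exact ⟨d, hd', Or.inl (key (z * t') (d * t' * d⁻¹) (by simp [e]))⟩
    · obtain ⟨d, rfl, hd'⟩ := lift d (zpowers_le.2 (pow_mem (mem_zpowers _) 2) hd)
      exact ⟨d, hd', Or.inr (key (z * s') (d * t' * d⁻¹) (by simp [e]))⟩
  · obtain ⟨d, hd, -, -, e1, e2, -⟩ := dihedral_odd h1 h2 ho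
    obtain ⟨d, rfl, hd'⟩ := lift d hd
    refine Or.inl ⟨d * s, mul_mem hd' (mem_sup_left (mem_zpowers s)),
      key t' (d * s' * s' * (d * s')⁻¹) ?_⟩
    simp only [map_mul, map_inv]
    rw [inv_eq_of_mul_eq_one_right e1, e2]

/-- A class of abelian TI 2-subgroups. -/
structure ASys (T : Set (Subgroup G)) : Prop where
  comm : ∀ {Q : Subgroup G}, Q ∈ T → ∀ {a b : G}, a ∈ Q → b ∈ Q → a * b = b * a
  pgroup : ∀ {Q : Subgroup G}, Q ∈ T → IsPGroup 2 Q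
  conj : ∀ {Q : Subgroup G}, Q ∈ T → ∀ g : G, cj g Q ∈ T
  trans : ∀ {Q Q' : Subgroup G}, Q ∈ T → Q' ∈ T → ∃ g : G, cj g Q = Q'
  ti : ∀ {Q Q' : Subgroup G}, Q ∈ T → Q' ∈ T → Q ≠ Q' → ∀ {x : G}, x ∈ Q → x ∈ Q' → x = 1

/-- A quadratic pair. -/
structure QP (T : Set (Subgroup G)) (Q Q' : Subgroup G) : Prop where
  left : Q ∈ T
  right : Q' ∈ T
  ne : Q ≠ Q'
  ne_bot : Nm Q Q' ≠ ⊥
  ne_bot' : Nm Q' Q ≠ ⊥
  ne_top : ∃ x ∈ Q, x ∉ Nm Q Q'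
  ne_top' : ∃ x ∈ Q', x ∉ Nm Q' Q
  quad : ∀ x ∈ Q, ∀ u ∈ Nm Q' Q, ⁅x, u⁆ ∈ Nm Q Q'
  quad' : ∀ x ∈ Q', ∀ u ∈ Nm Q Q', ⁅x, u⁆ ∈ Nm Q' Q
  sq : ∀ x ∈ Q, x * x ∈ Nm Q Q'
  sq' : ∀ x ∈ Q', x * x ∈ Nm Q' Q

theorem QP.symm (h : QP T Q Q') : QP T Q' Q :=
  ⟨h.right, h.left, h.ne.symm, h.ne_bot', h.ne_bot, h.ne_top', h.ne_top, h.quad', h.quad, h.sq',
    h.sq⟩

namespace ASys

theorem cj_eq_of_mem (h : ASys T) (hQ : Q ∈ T) (hQ' : Q' ∈ T) (ha : a ∈ Q) (h1 : a ≠ 1)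
    (hg : g * a * g⁻¹ ∈ Q') : cj g Q = Q' := by
  by_contra e
  exact h1 (by simpa using h.ti (h.conj hQ g) hQ' e (conj_mem_cj.2 ha) hg)

theorem mem_Ns_of_comm (h : ASys T) (hQ : Q ∈ T) (ha : a ∈ Q) (h1 : a ≠ 1)
    (hg : g * a = a * g) : g ∈ Ns Q :=
  cj_eq_self_iff.1 (h.cj_eq_of_mem hQ hQ ha h1 (by rw [hg, mul_inv_cancel_right]; exact ha))

theorem Nm_comm (h : ASys T) (hQ : Q ∈ T) (hQ' : Q' ∈ T) (hne : Q ≠ Q') (ha : a ∈ Nm Q Q')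
    (hb : b ∈ Nm Q' Q) : a * b = b * a :=
  commutatorElement_eq_one_iff_mul_comm.1
    (h.ti hQ hQ' hne (comm_mem_left hb.2 ha.1) (comm_mem_right ha.2 hb.1))

theorem comm_iff (h : ASys T) (hQ : Q ∈ T) (hQ' : Q' ∈ T) (hne : Q ≠ Q') (hu : u ∈ Nm Q' Q)
    (h1 : u ≠ 1) (hx : x ∈ Q) : x * u = u * x ↔ x ∈ Nm Q Q' :=
  ⟨fun e => ⟨hx, h.mem_Ns_of_comm hQ' hu.1 h1 e⟩, fun hx => h.Nm_comm hQ hQ' hne hx hu⟩

theorem comm_mul_left (h : ASys T) (hQ : Q ∈ T) (hg : g ∈ Ns Q) (hx : x ∈ Q) (hy : y ∈ Q) :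
    ⁅x * y, g⁆ = ⁅x, g⁆ * ⁅y, g⁆ := by
  have h1 := h.comm hQ hy (mem_normalizer_conj hg (inv_mem hx))
  have h2 := h.comm hQ (mem_normalizer_conj hg (inv_mem hy)) (mem_normalizer_conj hg (inv_mem hx))
  simp only [commutatorElement_def]
  calc x * y * g * (x * y)⁻¹ * g⁻¹ = x * y * (g * y⁻¹ * g⁻¹ * (g * x⁻¹ * g⁻¹)) := by group
    _ = x * (y * (g * x⁻¹ * g⁻¹)) * (g * y⁻¹ * g⁻¹) := by rw [h2]; group
    _ = _ := by rw [h1]; group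

theorem mem_NN (h : ASys T) (hQ : Q ∈ T) (hQ' : Q' ∈ T) (hne : Q ≠ Q') :
    x ∈ NN Q Q' ↔ ∃ a ∈ Nm Q Q', ∃ b ∈ Nm Q' Q, x = a * b := by
  refine ⟨fun hx => ?_, ?_⟩
  · rw [NN, sup_eq_closure] at hx
    induction hx using closure_induction with
    | mem x hx =>
      rcases hx with hx | hx
      · exact ⟨x, hx, 1, one_mem _, (mul_one x).symm⟩
      · exact ⟨1, one_mem _, x, hx, (one_mul x).symm⟩
    | one => exact ⟨1, one_mem _, 1, one_mem _, (mul_one 1).symm⟩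
    | mul x y _ _ hx hy =>
      obtain ⟨a, ha, b, hb, rfl⟩ := hx
      obtain ⟨c, hc, d, hd, rfl⟩ := hy
      refine ⟨a * c, mul_mem ha hc, b * d, mul_mem hb hd, ?_⟩
      calc a * b * (c * d) = a * (b * c) * d := by group
        _ = _ := by rw [← h.Nm_comm hQ hQ' hne hc hb]; group
    | inv x _ hx =>
      obtain ⟨a, ha, b, hb, rfl⟩ := hx
      exact ⟨a⁻¹, inv_mem ha, b⁻¹, inv_mem hb, by
        rw [mul_inv_rev, h.Nm_comm hQ hQ' hne (inv_mem ha) (inv_mem hb)]⟩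
  · rintro ⟨a, ha, b, hb, rfl⟩
    exact mul_mem (mem_sup_left ha) (mem_sup_right hb)

theorem NN_mul_comm (h : ASys T) (hQ : Q ∈ T) (hQ' : Q' ∈ T) (hne : Q ≠ Q') (hx : x ∈ NN Q Q')
    (hy : y ∈ NN Q Q') : x * y = y * x := by
  obtain ⟨a, ha, b, hb, rfl⟩ := (h.mem_NN hQ hQ' hne).1 hx
  obtain ⟨c, hc, d, hd, rfl⟩ := (h.mem_NN hQ hQ' hne).1 hy
  have h1 : Commute a c := h.comm hQ ha.1 hc.1
  have h2 : Commute b d := h.comm hQ' hb.1 hd.1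
  have h3 : Commute a d := h.Nm_comm hQ hQ' hne ha hd
  have h4 : Commute c b := h.Nm_comm hQ hQ' hne hc hb
  exact (h1.mul_right h3).mul_left (h4.symm.mul_right h2)

theorem NN_le_Ns : NN Q Q' ≤ Ns Q :=
  sup_le ((Nm_le _ _).trans le_normalizer) (Nm_le_Ns _ _)

theorem mem_Nm_of_NN (hx : x ∈ Q) (hN : x ∈ NN Q Q') :
    x ∈ Nm Q Q' := ⟨hx, NN_le_Ns (NN_comm Q Q' ▸ hN)⟩

theorem left_le_Ns_NN [Finite G] (h : ASys T) (hP : QP T Q Q') : Q ≤ Ns (NN Q Q') := fun x hx => by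
  refine mem_normalizer_of_cj_le (cj_le_iff.2 fun n hn => ?_)
  obtain ⟨a, ha, b, hb, rfl⟩ := (h.mem_NN hP.left hP.right hP.ne).1 hn
  have : x * (a * b) * x⁻¹ = a * ⁅x, b⁆ * b := by
    rw [← mul_assoc, h.comm hP.left hx ha.1, commutatorElement_def]; group
  rw [this]
  exact mul_mem (mem_sup_left (mul_mem ha (hP.quad x hx b hb))) (mem_sup_right hb)

theorem le_Ns_NN [Finite G] (h : ASys T) (hP : QP T Q Q') : Q ⊔ Q' ≤ Ns (NN Q Q') :=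
  sup_le (h.left_le_Ns_NN hP) (NN_comm Q' Q ▸ h.left_le_Ns_NN hP.symm)

theorem cent_NN (h : ASys T) (hQ : Q ∈ T) (hQ' : Q' ∈ T) (hne : Q ≠ Q') (hx : x ∈ Q)
    (hx' : x ∉ Nm Q Q') (hu : u ∈ NN Q Q') (hc : x * u = u * x) : u ∈ Nm Q Q' := by
  obtain ⟨a, ha, b, hb, rfl⟩ := (h.mem_NN hQ hQ' hne).1 hu
  have : b = 1 := by
    by_contra h1
    refine hx' ((h.comm_iff hQ hQ' hne hb h1 hx).1 (mul_left_cancel (a := a) ?_))
    rw [← mul_assoc, ← h.comm hQ hx ha.1, mul_assoc, hc, mul_assoc]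
  rwa [this, mul_one]

/-- An element of `N(N)` moving `x` into `x' N` moves the point of `x` to the point of `x'`. -/
theorem cj_eq_of_mod (h : ASys T) (hP : QP T Q Q') (hF : F ∈ T) (hg : g ∈ Ns (NN Q Q'))
    (hy : y ∈ F) (hu : u ∈ F) (h1 : u ≠ 1) (huN : u ∈ NN Q Q') (hx : x ∈ Q) (hx' : x ∉ Nm Q Q')
    (e : x⁻¹ * (g * y * g⁻¹) ∈ NN Q Q') : cj g F = Q := by
  have h2 := mem_normalizer_conj hg huN
  refine h.cj_eq_of_mem hF hP.left hu h1 (h.cent_NN hP.left hP.right hP.ne hx hx' h2 ?_).1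
  have h3 : Commute (g * y * g⁻¹) (g * u * g⁻¹) := by
    show _ = _
    calc g * y * g⁻¹ * (g * u * g⁻¹) = g * (y * u) * g⁻¹ := by group
      _ = _ := by rw [h.comm hF hy hu]; group
  have h4 : Commute (x⁻¹ * (g * y * g⁻¹)) (g * u * g⁻¹) := h.NN_mul_comm hP.left hP.right hP.ne e h2
  have := h3.mul_left h4.inv_left
  rw [mul_inv_rev (x⁻¹), inv_inv, mul_inv_cancel_left] at this
  exact this

/-- The dihedral lemma: an involution outside `N` and an element of order four. -/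
theorem dih [Finite G] (h : ASys T) (hP : QP T Q Q') (ha : a ∈ Q) (ha' : a ∉ Nm Q Q')
    (ha2 : a * a = 1) (hy : y ∈ Q') (hy2 : y * y ≠ 1)
    (hel : ∀ g ∈ Q ⊔ Q', ∀ F, F = Q ∨ F = Q' → cj g Q' ≠ F → ∀ x ∈ Nm (cj g Q') F, x * x = 1) :
    False := by
  have hU' : ∀ x ∈ Nm Q' Q, x * x = 1 := by
    have := hel 1 (one_mem _) Q (Or.inl rfl) (by rw [cj_one]; exact hP.ne.symm)
    rwa [cj_one] at this
  have hy' : y ∉ Nm Q' Q := fun hn => hy2 (hU' y hn)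
  have hN := h.le_Ns_NN hP
  have hle : zpowers a ⊔ zpowers y ≤ Q ⊔ Q' := sup_le_sup (zpowers_le.2 ha) (zpowers_le.2 hy)
  obtain ⟨u, hu, hu1⟩ := (Nm Q Q').bot_or_exists_ne_one.resolve_left hP.ne_bot
  obtain ⟨v, hv, hv1⟩ := (Nm Q' Q).bot_or_exists_ne_one.resolve_left hP.ne_bot'
  have huN : u ∈ NN Q Q' := mem_sup_left hu
  have hvN : v ∈ NN Q Q' := mem_sup_right hv
  have hsq : ∀ d : G, d * y * d⁻¹ * (d * y * d⁻¹) ≠ 1 := fun d e => hy2 (by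
    calc y * y = d⁻¹ * (d * y * d⁻¹ * (d * y * d⁻¹)) * d := by group
      _ = 1 := by rw [e]; group)
  rcases dihedral_mod (hN (mem_sup_left ha)) (hN (mem_sup_right hy)) (ha2 ▸ one_mem _)
    (mem_sup_right (hP.sq' y hy)) with ⟨g, hg, e⟩ | ⟨z, hz, hzN, e1, e2, d, hd, e⟩
  · have e' := h.cj_eq_of_mod hP.symm hP.left (NN_comm Q Q' ▸ hN (hle hg)) ha hu.1 hu1
      (NN_comm Q Q' ▸ huN) hy hy' (NN_comm Q Q' ▸ e)
    have h1 : g * a * g⁻¹ ∈ Q' := e' ▸ conj_mem_cj.2 ha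
    have h2 := mem_Nm_of_NN (mul_mem (inv_mem hy) h1) (NN_comm Q Q' ▸ e)
    have h3 := hU' _ h2
    have h4 : g * a * g⁻¹ * (g * a * g⁻¹) = 1 := by
      calc _ = g * (a * a) * g⁻¹ := by group
        _ = 1 := by rw [ha2]; group
    refine hy2 ?_
    have h5 := h.comm hP.right (inv_mem hy) h1
    generalize g * a * g⁻¹ = w at h3 h4 h5
    have : y⁻¹ * y⁻¹ = 1 := by
      calc y⁻¹ * y⁻¹ = y⁻¹ * (w * w) * y⁻¹ := by rw [h4, mul_one]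
        _ = y⁻¹ * w * (w * y⁻¹) := by group
        _ = 1 := by rw [← h5, h3]
    rw [← mul_inv_rev, inv_eq_one] at this
    exact this
  · have z1 : z ∈ Ns Q := cj_eq_self_iff.1
      (h.cj_eq_of_mod hP hP.left (hN (hle hz)) ha hu.1 hu1 huN ha ha' e1)
    have z2 : z ∈ Ns Q' := cj_eq_self_iff.1 (h.cj_eq_of_mod hP.symm hP.right
      (NN_comm Q Q' ▸ hN (hle hz)) hy hv.1 hv1 (NN_comm Q Q' ▸ hvN) hy hy' (NN_comm Q Q' ▸ e2))
    have hy1 : d * y * d⁻¹ ∈ cj d Q' := conj_mem_cj.2 hy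
    have N1 : NN Q Q' ≤ Ns Q := NN_le_Ns
    have N2 : NN Q Q' ≤ Ns Q' := NN_comm Q' Q ▸ NN_le_Ns
    rcases e with e | e
    · by_cases hc : cj d Q' = Q'
      · rw [hc] at hy1
        have h1 : d * y * d⁻¹ * y⁻¹ ∈ Q' := mul_mem hy1 (inv_mem hy)
        have h2 : y * ((z * y)⁻¹ * (d * y * d⁻¹)) * y⁻¹ ∈ NN Q Q' :=
          mem_normalizer_conj (hN (mem_sup_right hy)) e
        have h3 : d * y * d⁻¹ * y⁻¹ = z * (y * ((z * y)⁻¹ * (d * y * d⁻¹)) * y⁻¹) := by group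
        have h4 : d * y * d⁻¹ * y⁻¹ ∈ NN Q Q' :=
          mem_sup_right (mem_Nm.2 ⟨h1, h3 ▸ mul_mem z1 (N1 h2)⟩)
        rw [h3] at h4
        exact hzN ((mul_mem_cancel_right h2).1 h4)
      · refine hsq d (hel d (hle hd) Q' (Or.inr rfl) hc _ ⟨hy1, ?_⟩)
        have := mul_mem (mul_mem z2 (le_normalizer hy)) (N2 e)
        rwa [mul_inv_cancel_left] at this
    · by_cases hc : cj d Q' = Q
      · rw [hc] at hy1
        have h1 : d * y * d⁻¹ * a⁻¹ ∈ Q := mul_mem hy1 (inv_mem ha)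
        have h2 : a * ((z * a)⁻¹ * (d * y * d⁻¹)) * a⁻¹ ∈ NN Q Q' :=
          mem_normalizer_conj (hN (mem_sup_left ha)) e
        have h3 : d * y * d⁻¹ * a⁻¹ = z * (a * ((z * a)⁻¹ * (d * y * d⁻¹)) * a⁻¹) := by group
        have h4 : d * y * d⁻¹ * a⁻¹ ∈ NN Q Q' :=
          mem_sup_left (mem_Nm.2 ⟨h1, h3 ▸ mul_mem z2 (N2 h2)⟩)
        rw [h3] at h4
        exact hzN ((mul_mem_cancel_right h2).1 h4)
      · refine hsq d (hel d (hle hd) Q (Or.inl rfl) hc _ ⟨hy1, ?_⟩)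
        have := mul_mem (mul_mem z1 (le_normalizer ha)) (N1 e)
        rwa [mul_inv_cancel_left] at this

/-- One involution acting quadratically makes the pair quadratic on one side. -/
theorem half (h : ASys T) (hQ : Q ∈ T) (hQ' : Q' ∈ T) (hne : Q ≠ Q') {v : G} (hv : v ∈ Nm Q' Q)
    (h1 : v ≠ 1) (h2 : v * v = 1) (hq : ∀ x ∈ Q, ⁅x, v⁆ ∈ Nm Q Q') :
    (∀ x ∈ Q, x * x ∈ Nm Q Q') ∧
      (∀ x ∈ Q, ∀ u ∈ Nm Q' Q, ⁅x, u⁆ ∈ Nm Q Q' ∧ ⁅x, u⁆ * ⁅x, u⁆ = 1) ∧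
      ((∃ x ∈ Q, x ∉ Nm Q Q') → ∀ u ∈ Nm Q' Q, u * u = 1) := by
  have hvi : v⁻¹ = v := inv_eq_of_mul_eq_one_right h2
  have k1 : ∀ x ∈ Q, x * x ∈ Nm Q Q' := fun x hx => by
    have c1 := h.Nm_comm hQ hQ' hne (hq x hx) hv
    have c2 : v * ⁅x, v⁆ * v⁻¹ * ⁅x, v⁆ = 1 := by
      simp only [commutatorElement_def, hvi]
      calc _ = v * x * v * x⁻¹ * (v * v) * x * v * x⁻¹ * v := by group
        _ = v * x * v * x⁻¹ * 1 * x * v * x⁻¹ * v := by rw [h2]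
        _ = v * x * (v * v) * x⁻¹ * v := by
          simp only [mul_one, mul_assoc, inv_mul_cancel_left]
        _ = 1 := by rw [h2, mul_one, mul_inv_cancel_right, h2]
    rw [← c1, mul_inv_cancel_right, ← h.comm_mul_left hQ hv.2 hx hx,
      commutatorElement_eq_one_iff_mul_comm] at c2
    exact (h.comm_iff hQ hQ' hne hv h1 (mul_mem hx hx)).1 c2
  have k2 : ∀ x ∈ Q, ∀ u ∈ Nm Q' Q, ⁅x, u⁆ ∈ Nm Q Q' ∧ ⁅x, u⁆ * ⁅x, u⁆ = 1 := fun x hx u hu => by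
    refine ⟨(h.comm_iff hQ hQ' hne hv h1 (comm_mem_left hu.2 hx)).1 ?_, ?_⟩
    · have c1 : v * x * v⁻¹ = ⁅x, v⁆⁻¹ * x := by simp only [commutatorElement_def]; group
      have c2 : v * u * v⁻¹ = u := by rw [h.comm hQ' hv.1 hu.1, mul_inv_cancel_right]
      have c3 : ⁅⁅x, v⁆⁻¹, u⁆ = 1 := commutatorElement_eq_one_iff_mul_comm.2
        (h.Nm_comm hQ hQ' hne (inv_mem (hq x hx)) hu)
      have c4 := conj_comm v x u
      rw [c1, c2, h.comm_mul_left hQ hu.2 (inv_mem (hq x hx).1) hx, c3, one_mul] at c4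
      conv_lhs => rw [← c4]
      rw [inv_mul_cancel_right]
    · rw [← h.comm_mul_left hQ hu.2 hx hx, commutatorElement_eq_one_iff_mul_comm]
      exact h.Nm_comm hQ hQ' hne (k1 x hx) hu
  refine ⟨k1, k2, fun ⟨x, hx, hx'⟩ u hu => ?_⟩
  by_contra h3
  refine hx' ((h.comm_iff hQ hQ' hne (mul_mem hu hu) h3 hx).1 ?_)
  have c1 := h.Nm_comm hQ hQ' hne (k2 x hx u hu).1 hu
  have c2 : x * u = ⁅x, u⁆ * u * x := by simp only [commutatorElement_def]; group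
  have c3 := (k2 x hx u hu).2
  generalize ⁅x, u⁆ = c at c1 c2 c3
  calc x * (u * u) = c * u * (x * u) := by rw [← mul_assoc, ← mul_assoc, ← c2]
    _ = c * (u * c) * u * x := by rw [c2]; group
    _ = c * c * (u * u) * x := by rw [← c1]; group
    _ = _ := by rw [c3, one_mul]

end ASys

end Cfsg.Lib.TIM
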